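import Cfsg.Agent.H747.Hyperfocal
import Cfsg.Agent.H759.FusFactor
import Cfsg.Agent.H802.FusKNorm
import Cfsg.Agent.H802.FusNorm

set_option autoImplicit false
open Cfsg Cfsg.FusionSystem

/-!
# Weakly embedded subgroups of one order (helper787)

* `exists_coprime_lift` : an automorphism of `R` in `F` of order prime to `p` agrees modulo a strongly closed `T`
  with an automorphism of `R T` in `F` of order prime to `p`.
* `eq_one_of_large` : if all subgroups of order `d` are weakly embedded and have inner normalizer systems, then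
  automorphisms of order prime to `p` of subgroups of order at least `d` are trivial.
-/

namespace Cfsg.Agent.H787

variable {Ω : Type*} [Group Ω] {S : Subgroup Ω}

/-- `m ≡ 1` modulo `r` and `m ≡ 0` modulo `p ^ a`, when `r` is prime to `p`. -/
theorem exists_mod_pow {p r : ℕ} (a : ℕ) (h : r.Coprime p) : ∃ m : ℕ, m ≡ 1 [MOD r] ∧ p ^ a ∣ m := by
  obtain ⟨m, h1, h2⟩ := Nat.chineseRemainder (h.pow_right a) 1 0
  exact ⟨m, h1, (Nat.modEq_zero_iff_dvd).1 h2⟩

theorem pow_eq_of_modEq {G : Type*} [Group G] {g : G} {m : ℕ} (h : m ≡ 1 [MOD orderOf g]) :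
    g ^ m = g := by
  have := (pow_eq_pow_iff_modEq (x := g)).2 h
  simpa using this

/-- An element of a finite group has a power of order prime to `p` with exponent `≡ 1` modulo a given
number prime to `p`. -/
theorem exists_coprime_power {G : Type*} [Group G] {p r : ℕ} [hp : Fact p.Prime] (g : G)
    (hg : orderOf g ≠ 0) (h : r.Coprime p) :
    ∃ m : ℕ, m ≡ 1 [MOD r] ∧ (orderOf (g ^ m)).Coprime p := by
  obtain ⟨a, b, hb, hab⟩ := Nat.exists_eq_pow_mul_and_not_dvd hg p hp.out.ne_one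
  obtain ⟨m, h1, c, hc⟩ := exists_mod_pow a h
  refine ⟨m, h1, ?_⟩
  have h2 : (g ^ m) ^ b = 1 := by
    rw [← pow_mul]
    apply orderOf_dvd_iff_pow_eq_one.1
    rw [hab, hc]
    exact ⟨c, by ring⟩
  exact Nat.Coprime.coprime_dvd_left (orderOf_dvd_of_pow_eq_one h2)
    ((Nat.Prime.coprime_iff_not_dvd hp.out).2 hb).symm

/-- Powers of an automorphism of `R` and an automorphism of `R T` congruent modulo `T`. -/
theorem pow_congr_mod {T R U : Subgroup Ω} (hRU : R ≤ U) {α : MulAut R} {β : MulAut U}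
    (hβT : ∀ y : U, (y : Ω) ∈ T → ((β y : U) : Ω) ∈ T)
    (h : ∀ x : R, ((α x : R) : Ω)⁻¹ * (β ⟨x, hRU x.2⟩ : U) ∈ T) (n : ℕ) (x : R) :
    (((α ^ n) x : R) : Ω)⁻¹ * ((β ^ n) ⟨x, hRU x.2⟩ : U) ∈ T := by
  induction n with
  | zero => simp
  | succ n ih =>
    rw [pow_succ', pow_succ', MulAut.mul_apply, MulAut.mul_apply]
    have h1 := h ((α ^ n) x)
    have h2 := hβT (⟨(((α ^ n) x : R) : Ω), hRU ((α ^ n) x).2⟩⁻¹ * (β ^ n) ⟨x, hRU x.2⟩) ih
    rw [map_mul, map_inv] at h2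
    have h3 := T.mul_mem h1 h2
    simpa [mul_assoc] using h3

/-- **Lifting automorphisms of order prime to `p`** modulo a strongly closed subgroup. -/
theorem exists_coprime_lift [Finite S] {p : ℕ} [Fact p.Prime] (hS : IsPGroup p S)
    {F : FusionSystem S} (hF : F.IsSaturated p) {T : Subgroup Ω} (hT : F.StronglyClosed T)
    {R : Subgroup Ω} (hR : R ≤ S) {α : MulAut R} (hα : α ∈ F.autGroup R)
    (hco : (orderOf α).Coprime p) :
    ∃ β ∈ F.autGroup (R ⊔ T), (orderOf β).Coprime p ∧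
      ∀ (x : R), ((α x : R) : Ω)⁻¹ * (β ⟨x, le_sup_left (a := R) (b := T) x.2⟩ : ↥(R ⊔ T)) ∈ T := by
  have hRT : R ⊔ T ≤ S := sup_le hR hT.1
  obtain ⟨ψ, hψ, hψT⟩ := H759.exists_lift hS hF hT R _ ((H802.mem_autGroup_iff F hR α).1 hα)
  have := H802.finite_of_le (S := S) hRT
  have hmaps : ∀ y : ↥(R ⊔ T), ψ y ∈ R ⊔ T := by
    apply H759.hom_sup_mem
    · intro x hx hx'
      have h1 := hψT ⟨x, hx⟩ hx'
      have h2 : ψ ⟨x, hx'⟩ = ((α ⟨x, hx⟩ : R) : Ω) * (((α ⟨x, hx⟩ : R) : Ω)⁻¹ * ψ ⟨x, hx'⟩) := by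
        group
      rw [h2]
      exact (R ⊔ T).mul_mem (Subgroup.mem_sup_left (α ⟨x, hx⟩).2) (Subgroup.mem_sup_right h1)
    · intro x hx hx'
      exact Subgroup.mem_sup_right (H759.StronglyClosed.apply_mem hT hψ hx)
  obtain ⟨β, hβ, hβψ⟩ := H802.exists_aut hψ (H802.range_eq_of_mapsTo hψ hmaps)
  have hβT : ∀ y : ↥(R ⊔ T), (y : Ω) ∈ T → ((β y : ↥(R ⊔ T)) : Ω) ∈ T := by
    intro y hy
    rw [hβψ]
    exact H759.StronglyClosed.apply_mem hT hψ hy
  have hcong : ∀ x : R, ((α x : R) : Ω)⁻¹ * (β ⟨x, le_sup_left (a := R) (b := T) x.2⟩ : ↥(R ⊔ T)) ∈ T := by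
    intro x
    rw [hβψ]
    exact hψT x _
  have hfin : orderOf β ≠ 0 := (orderOf_pos β).ne'
  obtain ⟨m, hm, hco'⟩ := exists_coprime_power (p := p) β hfin hco
  refine ⟨β ^ m, Subgroup.pow_mem _ hβ m, hco', fun x => ?_⟩
  have h3 := pow_congr_mod (le_sup_left (a := R) (b := T)) hβT hcong m x
  rwa [pow_eq_of_modEq hm] at h3

/-! ### Invariant normal subgroups of `R` -/

/-- `X ≤ R` is normalized by `R` and invariant under `α`. -/
def Inv (R : Subgroup Ω) (α : MulAut R) (X : Subgroup Ω) : Prop :=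
  X ≤ R ∧ R ≤ Subgroup.normalizer (X : Set Ω) ∧ ∀ x : R, (x : Ω) ∈ X → ((α x : R) : Ω) ∈ X

theorem Inv.sup {R : Subgroup Ω} {α : MulAut R} {X Y : Subgroup Ω} (hX : Inv R α X)
    (hY : Inv R α Y) : Inv R α (X ⊔ Y) := by
  have hmem : ∀ x : Ω, x ∈ X ⊔ Y ↔ ∃ a ∈ X, ∃ b ∈ Y, a * b = x := fun x =>
    H759.mem_sup_of_normalizes (hX.1.trans hY.2.1)
  refine ⟨sup_le hX.1 hY.1, ?_, ?_⟩
  · intro r hr
    rw [Subgroup.mem_normalizer_iff]
    have key : ∀ s ∈ R, ∀ h ∈ X ⊔ Y, s * h * s⁻¹ ∈ X ⊔ Y := by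
      intro s hs h hh
      obtain ⟨a, ha, b, hb, rfl⟩ := (hmem h).1 hh
      have h1 : s * a * s⁻¹ ∈ X := (Subgroup.mem_normalizer_iff.1 (hX.2.1 hs) a).1 ha
      have h2 : s * b * s⁻¹ ∈ Y := (Subgroup.mem_normalizer_iff.1 (hY.2.1 hs) b).1 hb
      have h3 : s * (a * b) * s⁻¹ = (s * a * s⁻¹) * (s * b * s⁻¹) := by group
      rw [h3]
      exact (X ⊔ Y).mul_mem (Subgroup.mem_sup_left h1) (Subgroup.mem_sup_right h2)
    intro h
    refine ⟨key r hr h, fun hh => ?_⟩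
    have := key r⁻¹ (R.inv_mem hr) _ hh
    simpa [mul_assoc] using this
  · intro x hx
    obtain ⟨a, ha, b, hb, hab⟩ := (hmem x).1 hx
    have h1 : x = ⟨a, hX.1 ha⟩ * ⟨b, hY.1 hb⟩ := Subtype.ext hab.symm
    rw [h1, map_mul]
    exact (X ⊔ Y).mul_mem (Subgroup.mem_sup_left (hX.2.2 ⟨a, hX.1 ha⟩ ha))
      (Subgroup.mem_sup_right (hY.2.2 ⟨b, hY.1 hb⟩ hb))

theorem Inv.inf {R : Subgroup Ω} {α : MulAut R} {X Y : Subgroup Ω} (hX : Inv R α X)
    (hY : Inv R α Y) : Inv R α (X ⊓ Y) := by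
  refine ⟨inf_le_left.trans hX.1, fun r hr => ?_, fun x hx => ⟨hX.2.2 x hx.1, hY.2.2 x hx.2⟩⟩
  rw [Subgroup.mem_normalizer_iff]
  intro h
  exact and_congr (Subgroup.mem_normalizer_iff.1 (hX.2.1 hr) h)
    (Subgroup.mem_normalizer_iff.1 (hY.2.1 hr) h)

theorem Inv.of_stronglyClosed {F : FusionSystem S} {R : Subgroup Ω} {α : MulAut R} (hR : R ≤ S)
    (hα : α ∈ F.autGroup R) {T : Subgroup Ω} (hT : F.StronglyClosed T) : Inv R α (T ⊓ R) := by
  refine ⟨inf_le_right, fun r hr => ?_, fun x hx => ⟨?_, (α x).2⟩⟩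
  · rw [Subgroup.mem_normalizer_iff]
    intro h
    refine and_congr (Subgroup.mem_normalizer_iff.1
      (H759.StronglyClosed.le_normalizer hT (hR hr)) h) ?_
    constructor
    · intro hh
      exact R.mul_mem (R.mul_mem hr hh) (R.inv_mem hr)
    · intro hh
      have := R.mul_mem (R.mul_mem (R.inv_mem hr) hh) hr
      simpa [mul_assoc] using this
  · exact H759.StronglyClosed.apply_mem hT ((H802.mem_autGroup_iff F hR α).1 hα) hx.1

theorem Inv.bot (R : Subgroup Ω) (α : MulAut R) : Inv R α ⊥ := by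
  refine ⟨bot_le, fun r hr => ?_, fun x hx => ?_⟩
  · rw [Subgroup.mem_normalizer_iff]
    intro h
    simp
  · have : x = 1 := Subtype.ext (Subgroup.mem_bot.1 hx)
    rw [this, map_one]
    exact Subgroup.one_mem _

theorem Inv.self (R : Subgroup Ω) (α : MulAut R) : Inv R α R :=
  ⟨le_rfl, Subgroup.le_normalizer, fun x _ => (α x).2⟩

theorem finite_Iic {R : Subgroup Ω} [Finite R] : {X : Subgroup Ω | X ≤ R}.Finite := by
  have h : Set.MapsTo (fun X : Subgroup Ω => X.subgroupOf R) {X : Subgroup Ω | X ≤ R} Set.univ :=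
    fun _ _ => Set.mem_univ _
  refine Set.Finite.of_injOn h (fun X hX Y hY hXY => ?_) (Set.finite_univ)
  have h2 : X.subgroupOf R = Y.subgroupOf R := hXY
  have h1 : (X.subgroupOf R).map R.subtype = (Y.subgroupOf R).map R.subtype := by
    rw [h2]
  rwa [Subgroup.subgroupOf_map_subtype, Subgroup.subgroupOf_map_subtype, inf_eq_left.2 hX,
    inf_eq_left.2 hY] at h1

/-- Subgroups of intermediate order in a finite `p`-group. -/
theorem exists_between {p : ℕ} [Fact p.Prime] {X Y : Subgroup Ω} [Finite Y] (hY : IsPGroup p Y)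
    (hXY : X ≤ Y) {k : ℕ} (h1 : Nat.card X ≤ p ^ k) (h2 : p ^ k ≤ Nat.card Y) :
    ∃ Q : Subgroup Ω, X ≤ Q ∧ Q ≤ Y ∧ Nat.card Q = p ^ k := by
  have hp := (Fact.out : p.Prime)
  have : Finite X := Finite.of_injective _ (Subgroup.inclusion_injective hXY)
  obtain ⟨m, hm⟩ := (hY.to_le hXY).exists_card_eq
  obtain ⟨n, hn⟩ := hY.exists_card_eq
  have hmk : m ≤ k := by
    rw [hm] at h1
    exact (Nat.pow_le_pow_iff_right hp.one_lt).1 h1
  have hkn : k ≤ n := by
    rw [hn] at h2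
    exact (Nat.pow_le_pow_iff_right hp.one_lt).1 h2
  have hcX : Nat.card (X.subgroupOf Y) = p ^ m := by
    rw [← hm]
    exact Nat.card_congr (Subgroup.subgroupOfEquivOfLe hXY).toEquiv
  obtain ⟨K, hK, hXK⟩ := Sylow.exists_subgroup_card_pow_prime_le p
    (n := m) (m := k) (by rw [hn]; exact pow_dvd_pow p hkn) (X.subgroupOf Y) hcX hmk
  refine ⟨K.map Y.subtype, ?_, ?_, ?_⟩
  · intro x hx
    exact ⟨⟨x, hXY hx⟩, hXK (show (⟨x, hXY hx⟩ : Y) ∈ X.subgroupOf Y from hx), rfl⟩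
  · rintro _ ⟨y, -, rfl⟩
    exact y.2
  · rw [← hK]
    exact Nat.card_congr (K.equivMapOfInjective _ Y.subtype_injective).toEquiv.symm

/-- An automorphism of order prime to `p` of a subgroup `R` containing an invariant normal subgroup `X` whose
conjugates have inner normalizer systems is trivial. -/
theorem eq_one_of_inv [Finite S] {p : ℕ} [Fact p.Prime] (hS : IsPGroup p S)
    {F : FusionSystem S} (hF : F.IsSaturated p) {X : Subgroup Ω}
    (hnorm : ∀ H : Subgroup Ω, F.IsFullyNormalized H → Nat.card H = Nat.card X →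
      ∀ (P : Subgroup Ω) (φ : P →* Ω), φ ∈ F.normalizerHom H P →
        ∃ g ∈ S, ∀ x : P, φ x = g * (x : Ω) * g⁻¹)
    {R : Subgroup Ω} (hR : R ≤ S) {α : MulAut R} (hα : α ∈ F.autGroup R)
    (hco : (orderOf α).Coprime p) (hX : Inv R α X) : α = 1 := by
  have hp := (Fact.out : p.Prime)
  have hXS : X ≤ S := hX.1.trans hR
  obtain ⟨X', hXX', hX'⟩ := H802.exists_isFullyNormalized hS hF hXS
  have hcard : Nat.card X' = Nat.card X := (H802.isConj_card_eq hXX').symm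
  obtain ⟨φ, hφ, hφX'⟩ := hXX'
  obtain ⟨β, hβ, ψ, hψ, hψφ, hψN⟩ := H802.exists_extension_normalizer hS hF hφ hφX' hX'
  have hRN : R ≤ normalizerIn S X := le_inf hR hX.2.1
  have hγ := H802.restrict_mem hψ hRN
  set γ : R →* Ω := ψ.comp (Subgroup.inclusion hRN) with hγdef
  have hγinj := F.injective_of_mem hγ
  have hγN : ∀ x : R, γ x ∈ normalizerIn S X' := fun x => hψN _
  have hγX : ∀ x : R, (x : Ω) ∈ X → γ x ∈ X' := by
    intro x hx
    have hx' : φ ⟨x, hx⟩ ∈ X' := by rw [← hφX']; exact ⟨_, rfl⟩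
    have h1 := hψφ ⟨x, hx⟩ hx' (hRN x.2)
    have h2 : γ x = ψ ⟨(x : Ω), hRN x.2⟩ := rfl
    rw [h2, h1]
    exact (β _).2
  have : Finite X' := H802.finite_of_le hX'.1
  have : Finite R := H802.finite_of_le hR
  -- the image of `X` is `X'`
  have hX'le : X' ≤ γ.range := by
    have h1 : (X.subgroupOf R).map γ ≤ X' := by
      rintro _ ⟨x, hx, rfl⟩
      exact hγX x hx
    have h2 : Nat.card X' ≤ Nat.card ((X.subgroupOf R).map γ) := by
      rw [Nat.card_congr ((X.subgroupOf R).equivMapOfInjective γ hγinj).toEquiv.symm, hcard]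
      exact (Nat.card_congr (Subgroup.subgroupOfEquivOfLe hX.1).toEquiv).ge
    rw [← Subgroup.eq_of_le_of_card_ge h1 h2]
    rintro _ ⟨x, -, rfl⟩
    exact ⟨x, rfl⟩
  obtain ⟨δ, hδ, hδr, hδγ, hγδ⟩ := H802.exists_inv hγ rfl
  have hδR : ∀ y : γ.range, δ y ∈ R := fun y => hδr.le ⟨y, rfl⟩
  obtain ⟨χ₁, hχ₁, hχ₁e⟩ := H802.exists_comp hδ ((H802.mem_autGroup_iff F hR α).1 hα) hδR
  have hχ₁R : ∀ y : γ.range, χ₁ y ∈ R := fun y => by rw [hχ₁e]; exact (α _).2
  obtain ⟨χ, hχ, hχe⟩ := H802.exists_comp hχ₁ hγ hχ₁R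
  have hχγ : ∀ x : R, χ ⟨γ x, ⟨x, rfl⟩⟩ = γ (α x) := by
    intro x
    rw [hχe]
    congr 1
    apply Subtype.ext
    show χ₁ ⟨γ x, ⟨x, rfl⟩⟩ = _
    rw [hχ₁e]
    show ((α _ : R) : Ω) = _
    congr 2
    exact Subtype.ext (hδγ x ⟨x, rfl⟩)
  have hle : γ.range ⊔ X' ≤ γ.range := sup_le le_rfl hX'le
  have hrangeN : γ.range ≤ normalizerIn S X' := by
    rintro _ ⟨x, rfl⟩
    exact hγN x
  have hmem : χ ∈ F.normalizerHom X' γ.range := by
    refine ⟨hχ, hrangeN, ?_, χ.comp (Subgroup.inclusion hle), H802.restrict_mem hχ hle, ?_, ?_⟩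
    · intro y
      obtain ⟨x, hx⟩ := y.2
      have hy : y = ⟨γ x, ⟨x, rfl⟩⟩ := Subtype.ext hx.symm
      rw [hy, hχγ]
      exact hγN _
    · intro x
      rfl
    · have hinj : Function.Injective (χ.comp (Subgroup.inclusion hle)) :=
        F.injective_of_mem (H802.restrict_mem hχ hle)
      refine Subgroup.eq_of_le_of_card_ge ?_ ?_
      · rintro _ ⟨y, hy, rfl⟩
        have hy' : (y : Ω) ∈ X' := hy
        -- `y = γ x` with `x ∈ X`
        have h1 : (X.subgroupOf R).map γ = X' := by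
          refine Subgroup.eq_of_le_of_card_ge ?_ ?_
          · rintro _ ⟨x, hx, rfl⟩
            exact hγX x hx
          · rw [Nat.card_congr ((X.subgroupOf R).equivMapOfInjective γ hγinj).toEquiv.symm, hcard]
            exact (Nat.card_congr (Subgroup.subgroupOfEquivOfLe hX.1).toEquiv).ge
        obtain ⟨x, hx, hxy⟩ := h1.ge hy'
        have h2 : (χ.comp (Subgroup.inclusion hle)) y = χ ⟨γ x, ⟨x, rfl⟩⟩ := by
          show χ (Subgroup.inclusion hle y) = _
          congr 1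
          exact Subtype.ext hxy.symm
        rw [h2, hχγ]
        exact hγX _ (hX.2.2 x hx)
      · rw [Nat.card_congr ((X'.subgroupOf (γ.range ⊔ X')).equivMapOfInjective _ hinj).toEquiv.symm]
        exact (Nat.card_congr (Subgroup.subgroupOfEquivOfLe
          (le_sup_right : X' ≤ γ.range ⊔ X')).toEquiv).ge
  obtain ⟨g, hg, hgχ⟩ := hnorm X' hX' hcard _ χ hmem
  have hpow : ∀ (n : ℕ) (x : R), γ ((α ^ n) x) = g ^ n * γ x * (g ^ n)⁻¹ := by
    intro n
    induction n with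
    | zero => intro x; simp
    | succ n ih =>
      intro x
      rw [pow_succ', MulAut.mul_apply, ← hχγ, hgχ]
      show g * γ ((α ^ n) x) * g⁻¹ = _
      rw [ih, pow_succ']
      group
  obtain ⟨j, hj⟩ := hS ⟨g, hg⟩
  have hj' : g ^ p ^ j = 1 := congrArg Subtype.val hj
  have h1 : α ^ p ^ j = 1 := by
    ext x
    congr 1
    apply hγinj
    rw [hpow, hj']
    simp
  have h2 : orderOf α ∣ p ^ j := orderOf_dvd_of_pow_eq_one h1
  have h3 : orderOf α = 1 := Nat.Coprime.eq_one_of_dvd (Nat.Coprime.pow_right j hco) h2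
  exact orderOf_eq_one_iff.1 h3

/-- If all subgroups of order `p ^ k` are weakly embedded and have inner normalizer systems, then the
automorphisms of order prime to `p` of the subgroups of order at least `p ^ k` are trivial. -/
theorem eq_one_of_large [Finite S] {p : ℕ} [Fact p.Prime] (hS : IsPGroup p S)
    {F : FusionSystem S} (hF : F.IsSaturated p) {k : ℕ}
    (hweak : ∀ Q : Subgroup Ω, Q ≤ S → Nat.card Q = p ^ k →
      ∃ P : Subgroup Ω, F.StronglyClosed P ∧ F.StronglyClosed (Q ⊔ P) ∧ F.StronglyClosed (Q ⊓ P))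
    (hnorm : ∀ H : Subgroup Ω, F.IsFullyNormalized H → Nat.card H = p ^ k →
      ∀ (P : Subgroup Ω) (φ : P →* Ω), φ ∈ F.normalizerHom H P →
        ∃ g ∈ S, ∀ x : P, φ x = g * (x : Ω) * g⁻¹)
    {R : Subgroup Ω} (hR : R ≤ S) (hk : p ^ k ≤ Nat.card R) {α : MulAut R}
    (hα : α ∈ F.autGroup R) (hco : (orderOf α).Coprime p) : α = 1 := by
  have hp := (Fact.out : p.Prime)
  have : Finite R := H802.finite_of_le hR
  -- a maximal invariant `X` of order at most `p ^ k`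
  have hfin : {X : Subgroup Ω | Inv R α X ∧ Nat.card X ≤ p ^ k}.Finite :=
    finite_Iic.subset fun X hX => hX.1.1
  obtain ⟨X, hXm⟩ := hfin.exists_maximal ⟨⊥, Inv.bot R α, by
    rw [Subgroup.card_bot]
    exact Nat.one_le_pow _ _ hp.pos⟩
  have hX : Inv R α X := hXm.prop.1
  have hXk : Nat.card X ≤ p ^ k := hXm.prop.2
  rcases hXk.eq_or_lt with hXk | hXk
  · exact eq_one_of_inv hS hF (by rw [hXk]; exact hnorm) hR hα hco hX
  exfalso
  have hmax : ∀ Y, Inv R α Y → X < Y → p ^ k < Nat.card Y := by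
    intro Y hY hXY
    by_contra hcon
    exact hXY.not_ge (hXm.le_of_ge ⟨hY, not_lt.1 hcon⟩ hXY.le)
  have hXR : X < R := lt_of_le_of_ne hX.1 fun h => by
    rw [h] at hXk
    omega
  have hfin2 : {Y : Subgroup Ω | Inv R α Y ∧ X < Y}.Finite := finite_Iic.subset fun Y hY => hY.1.1
  obtain ⟨Y, hYm⟩ := hfin2.exists_minimal ⟨R, Inv.self R α, hXR⟩
  have hY : Inv R α Y := hYm.prop.1
  have hXY : X < Y := hYm.prop.2
  have hYk := hmax Y hY hXY
  -- between `X` and `Y` there is nothing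
  have hbetw : ∀ Z, Inv R α Z → X ≤ Z → Z ≤ Y → Z = X ∨ Z = Y := by
    intro Z hZ h1 h2
    rcases h1.eq_or_lt with h | h
    · exact Or.inl h.symm
    · exact Or.inr (le_antisymm h2 (hYm.le_of_le ⟨hZ, h⟩ h2))
  have : Finite Y := Finite.of_injective _ (Subgroup.inclusion_injective hY.1)
  obtain ⟨Q, hXQ, hQY, hQ⟩ := exists_between ((hS.to_le hR).to_le hY.1) hXY.le hXk.le hYk.le
  obtain ⟨P, hP, hQP, hQiP⟩ := hweak Q ((hQY.trans hY.1).trans hR) hQ
  have : Finite Q := Finite.of_injective _ (Subgroup.inclusion_injective hQY)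
  have hQneY : Q ≠ Y := fun h => by
    rw [h] at hQ
    omega
  have hXneQ : X ≠ Q := fun h => by
    rw [h] at hXk
    omega
  -- `Q ⊓ P ≤ X`
  have h1 : Q ⊓ P ≤ X := by
    have hi : Inv R α ((Q ⊓ P) ⊓ R) := Inv.of_stronglyClosed hR hα hQiP
    have hle : Q ⊓ P ≤ R := (inf_le_left.trans hQY).trans hY.1
    rw [inf_eq_left.2 hle] at hi
    rcases hbetw _ (hX.sup hi) le_sup_left (sup_le hXY.le (inf_le_left.trans hQY)) with h | h
    · exact le_sup_right.trans h.le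
    · exfalso
      have : Y ≤ Q := h.ge.trans (sup_le hXQ inf_le_left)
      exact hQneY (le_antisymm hQY this)
  -- `Y ≤ Q P`
  have h2 : Y ≤ Q ⊔ P := by
    have hi : Inv R α ((Q ⊔ P) ⊓ R) := Inv.of_stronglyClosed hR hα hQP
    rcases hbetw _ (hi.inf hY) (le_inf (le_inf (hXQ.trans le_sup_left) hX.1) hXY.le) inf_le_right
      with h | h
    · exfalso
      have : Q ≤ X := le_trans (le_inf (le_inf le_sup_left (hQY.trans hY.1)) hQY) h.le
      exact hXneQ (le_antisymm hXQ this)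
    · exact h.ge.trans (inf_le_left.trans inf_le_left)
  have hPn : S ≤ Subgroup.normalizer (P : Set Ω) := H759.StronglyClosed.le_normalizer hP
  have hQPmem : ∀ y ∈ Y, ∃ a ∈ Q, ∃ b ∈ P, a * b = y := fun y hy =>
    (H759.mem_sup_of_normalizes (((hQY.trans hY.1).trans hR).trans hPn)).1 (h2 hy)
  have hi : Inv R α (P ⊓ Y) := by
    have h3 : Inv R α ((P ⊓ R) ⊓ Y) := (Inv.of_stronglyClosed hR hα hP).inf hY
    have h4 : (P ⊓ R) ⊓ Y = P ⊓ Y := by
      rw [inf_assoc, inf_eq_right.2 hY.1]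
    rwa [h4] at h3
  rcases hbetw _ (hX.sup hi) le_sup_left (sup_le hXY.le inf_le_right) with h | h
  · -- `P ⊓ Y ≤ X`
    apply hQneY
    refine le_antisymm hQY fun y hy => ?_
    obtain ⟨a, ha, b, hb, rfl⟩ := hQPmem y hy
    have hbY : b ∈ Y := by
      have := Y.mul_mem (Y.inv_mem (hQY ha)) hy
      simpa using this
    have : b ∈ X := h.le (Subgroup.mem_sup_right ⟨hb, hbY⟩)
    exact Q.mul_mem ha (hXQ this)
  · -- `Y = X (P ⊓ Y)`
    apply hXneQ
    refine le_antisymm hXQ fun q hq => ?_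
    have hqY : q ∈ X ⊔ (P ⊓ Y) := h.ge (hQY hq)
    obtain ⟨a, ha, b, hb, hab⟩ := (H759.mem_sup_of_normalizes (hX.1.trans hi.2.1)).1 hqY
    have hbQ : b ∈ Q := by
      have : b = a⁻¹ * q := by rw [← hab]; group
      rw [this]
      exact Q.mul_mem (Q.inv_mem (hXQ ha)) hq
    rw [← hab]
    exact X.mul_mem ha (h1 ⟨hbQ, hb.1⟩)

end Cfsg.Agent.H787
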