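import Cfsg.Agent.H787.WeakEmb
import Cfsg.Agent.H747.MonoOfBiset
import Cfsg.Agent.Lib.FrattiniPGroup
import Cfsg.Agent.Lib.NormalAbelian

set_option autoImplicit false
open Cfsg Cfsg.FusionSystem
open scoped commutatorElement

/-!
# Weakly embedded subgroups of one order with inner normalizer systems: the main argument (helper787)
-/

namespace Cfsg.Agent.H787

variable {Ω : Type*} [Group Ω] {S : Subgroup Ω}

theorem eq_of_card_prime {p : ℕ} (hp : p.Prime) {T Z T₁ : Subgroup Ω} [Finite T₁] (h1 : T < Z)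
    (h2 : Z ≤ T₁) (hc : Nat.card T₁ = p * Nat.card T) : Z = T₁ := by
  have : Finite Z := Finite.of_injective _ (Subgroup.inclusion_injective h2)
  have : Finite T := Finite.of_injective _ (Subgroup.inclusion_injective h1.le)
  refine Subgroup.eq_of_le_of_card_ge h2 ?_
  obtain ⟨a, ha⟩ := Subgroup.card_dvd_of_le h1.le
  obtain ⟨b, hb⟩ := Subgroup.card_dvd_of_le h2
  have hT : 0 < Nat.card T := Nat.card_pos
  have h3 : a * b = p := by
    have : Nat.card T * (a * b) = Nat.card T * p := by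
      rw [← mul_assoc, ← ha, ← hb, hc, mul_comm]
    exact Nat.eq_of_mul_eq_mul_left hT this
  have hb1 : b = 1 := by
    rcases (Nat.dvd_prime hp).1 (Dvd.intro_left a h3) with h | h
    · exact h
    · exfalso
      rw [h] at h3
      have ha1 : a = 1 := by
        have := hp.pos
        nlinarith
      rw [ha1, mul_one] at ha
      exact h1.ne (Subgroup.eq_of_le_of_card_ge h1.le ha.le)
  rw [hb, hb1, mul_one]

/-- If `|T₁ : T| = p` for strongly closed `T < T₁` then `S` centralizes `T₁` modulo `T`. -/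
theorem comm_mem_of_card [Finite S] {p : ℕ} [hp : Fact p.Prime] (hS : IsPGroup p S)
    {T T₁ : Subgroup Ω} (hT₁ : T₁ ≤ S) (hTn : S ≤ Subgroup.normalizer (T : Set Ω))
    (hT₁n : S ≤ Subgroup.normalizer (T₁ : Set Ω)) (hlt : T < T₁)
    (hc : Nat.card T₁ = p * Nat.card T) {t s : Ω} (ht : t ∈ T₁) (hs : s ∈ S) :
    t * s * t⁻¹ * s⁻¹ ∈ T := by
  have : Group.IsNilpotent S := hS.isNilpotent
  have : Finite T₁ := H802.finite_of_le hT₁
  have hn : ∀ {K : Subgroup Ω}, S ≤ Subgroup.normalizer (K : Set Ω) → (K.subgroupOf S).Normal := by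
    intro K hK
    refine ⟨fun n hn g => ?_⟩
    exact (Subgroup.mem_normalizer_iff.1 (hK g.2) n).1 hn
  obtain ⟨x, hxT₁, hxT, hx⟩ := Lib.NormalAbelian.exists_mem_not_mem_central_mod (hn hTn) (hn hT₁n)
    (fun h => by
      apply hlt.not_ge
      intro y hy
      exact h (show (⟨y, hT₁ hy⟩ : S) ∈ T₁.subgroupOf S from hy))
  -- the elements central modulo `T`
  let Z : Subgroup Ω :=
    { carrier := {t | t ∈ T₁ ∧ ∀ s ∈ S, t * s * t⁻¹ * s⁻¹ ∈ T}
      one_mem' := ⟨T₁.one_mem, fun s _ => by simp⟩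
      mul_mem' := by
        rintro a b ⟨ha, ha'⟩ ⟨hb, hb'⟩
        refine ⟨T₁.mul_mem ha hb, fun s hs => ?_⟩
        have h1 := ha' s hs
        have h2 := (Subgroup.mem_normalizer_iff.1 (hTn (hT₁ ha)) _).1 (hb' s hs)
        have h3 := T.mul_mem h2 h1
        have h4 : a * (b * s * b⁻¹ * s⁻¹) * a⁻¹ * (a * s * a⁻¹ * s⁻¹) =
            (a * b) * s * (a * b)⁻¹ * s⁻¹ := by group
        rwa [h4] at h3
      inv_mem' := by
        rintro a ⟨ha, ha'⟩
        refine ⟨T₁.inv_mem ha, fun s hs => ?_⟩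
        have h1 := T.inv_mem (ha' s hs)
        have h2 := (Subgroup.mem_normalizer_iff.1 (hTn (S.inv_mem (hT₁ ha))) _).1 h1
        have h4 : a⁻¹ * (a * s * a⁻¹ * s⁻¹)⁻¹ * a⁻¹⁻¹ = a⁻¹ * s * a⁻¹⁻¹ * s⁻¹ := by group
        rwa [h4] at h2 }
  have hTZ : T < Z := by
    refine lt_of_le_of_ne (fun y hy => ⟨hlt.le hy, fun s hs => ?_⟩) fun h => hxT ?_
    · have h1 := (Subgroup.mem_normalizer_iff.1 (hTn hs) _).1 (T.inv_mem hy)
      have h2 := T.mul_mem hy h1
      simpa [mul_assoc] using h2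
    · have : (x : Ω) ∈ Z := ⟨hxT₁, fun s hs => hx ⟨s, hs⟩⟩
      exact h.ge this
  have hZ : Z = T₁ := eq_of_card_prime hp.out hTZ (fun y hy => hy.1) hc
  have : t ∈ Z := hZ.ge ht
  exact this.2 s hs

/-- The case `|T₁ : T| = p`. -/
theorem fix_of_card [Finite S] {p : ℕ} [hp : Fact p.Prime] (hS : IsPGroup p S)
    {F : FusionSystem S} (hF : F.IsSaturated p) {T T₁ : Subgroup Ω} (hT : F.StronglyClosed T)
    (hT₁ : F.StronglyClosed T₁) (hlt : T < T₁) (hc : Nat.card T₁ = p * Nat.card T)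
    (hp' : ∀ α ∈ F.autGroup S, (orderOf α).Coprime p → α = 1)
    {α : MulAut T₁} (hα : α ∈ F.autGroup T₁) (hco : (orderOf α).Coprime p) (t : T₁) :
    (t : Ω)⁻¹ * (α t : T₁) ∈ T := by
  have hT₁S := hT₁.1
  have hTn := H759.StronglyClosed.le_normalizer hT
  have hT₁n := H759.StronglyClosed.le_normalizer hT₁
  have hcomm : ∀ {t s : Ω}, t ∈ T₁ → s ∈ S → t * s * t⁻¹ * s⁻¹ ∈ T := fun ht hs =>
    comm_mem_of_card hS hT₁S hTn hT₁n hlt hc ht hs
  have : Finite T₁ := H802.finite_of_le hT₁S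
  -- the automorphisms of `T₁` trivial modulo `T`
  have hinvT : ∀ κ ∈ F.autGroup T₁, ∀ x : T₁, (x : Ω) ∈ T → ((κ x : T₁) : Ω) ∈ T := by
    intro κ hκ x hx
    exact H759.StronglyClosed.apply_mem hT ((H802.mem_autGroup_iff F hT₁S κ).1 hκ) hx
  let K : Subgroup (MulAut T₁) :=
    { carrier := {κ | κ ∈ F.autGroup T₁ ∧ ∀ x : T₁, (x : Ω)⁻¹ * (κ x : T₁) ∈ T}
      one_mem' := ⟨Subgroup.one_mem _, fun x => by simp⟩
      mul_mem' := by
        rintro a b ⟨ha, ha'⟩ ⟨hb, hb'⟩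
        refine ⟨Subgroup.mul_mem _ ha hb, fun x => ?_⟩
        have h1 := ha' (b x)
        have h2 := hb' x
        have h3 := T.mul_mem h2 h1
        simpa [mul_assoc] using h3
      inv_mem' := by
        rintro a ⟨ha, ha'⟩
        refine ⟨Subgroup.inv_mem _ ha, fun x => ?_⟩
        have h1 := T.inv_mem (ha' (a⁻¹ x))
        simpa using h1 }
  have hfn : F.IsFullyNormalized T₁ := by
    refine ⟨hT₁S, fun Q hQ => ?_⟩
    have h1 : normalizerIn S T₁ = S := inf_eq_left.2 hT₁n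
    rw [h1]
    exact Nat.card_le_card_of_injective _ (Subgroup.inclusion_injective (inf_le_left : normalizerIn S Q ≤ S))
  have hrange : (T₁.subtype.comp α.toMonoidHom).range = T₁ := by
    ext y
    constructor
    · rintro ⟨x, rfl⟩
      exact (α x).2
    · intro hy
      exact ⟨α⁻¹ ⟨y, hy⟩, by simp⟩
  obtain ⟨k, hk, ψ, hψ, hψe⟩ := H759.exists_extension F hS
    (H802.isFullyAutomized_of_isFullyNormalized hS hF hfn)
    (H802.isReceptive_of_isFullyNormalized hS hF hfn)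
    ((H802.mem_autGroup_iff F hT₁S α).1 hα) hrange K (fun κ hκ => hκ.1)
    (by
      rintro a ha κ ⟨hκ, hκ'⟩
      refine ⟨Subgroup.mul_mem _ (Subgroup.mul_mem _ ha hκ) (Subgroup.inv_mem _ ha), fun x => ?_⟩
      have h1 := hκ' (a⁻¹ x)
      have h2 := hinvT a ha ((a⁻¹ x)⁻¹ * κ (a⁻¹ x)) h1
      simpa using h2)
    S le_rfl hT₁n
    (by
      intro g hg
      have hg' : g ∈ Subgroup.normalizer (T₁ : Set Ω) := hT₁n hg
      have hcg : H759.conjAut T₁ g hg' ∈ F.autGroup T₁ := by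
        apply H759.autInducedBy_le_autGroup F hT₁S
        exact H759.mem_autInducedBy.2 ⟨g, hg, fun x => H759.coe_conjAut hg' x⟩
      refine ⟨α * H759.conjAut T₁ g hg' * α⁻¹, ⟨Subgroup.mul_mem _ (Subgroup.mul_mem _ hα hcg)
        (Subgroup.inv_mem _ hα), fun x => ?_⟩, 1, S.one_mem, Subgroup.one_mem _, fun x hx hy => ?_⟩
      · have h1 : ((α⁻¹ x : T₁) : Ω)⁻¹ * (H759.conjAut T₁ g hg' (α⁻¹ x) : T₁) ∈ T := by
          rw [H759.coe_conjAut]
          have := hcomm (T₁.inv_mem (α⁻¹ x).2) hg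
          simpa [mul_assoc] using this
        have h2 := hinvT α hα ((α⁻¹ x)⁻¹ * H759.conjAut T₁ g hg' (α⁻¹ x)) h1
        simpa using h2
      · have h1 : (⟨1 * (T₁.subtype.comp α.toMonoidHom) x * 1⁻¹, hy⟩ : T₁) = α x := by
          apply Subtype.ext
          simp
        have h2 : (⟨g * (x : Ω) * g⁻¹, hx⟩ : T₁) = H759.conjAut T₁ g hg' x := by
          apply Subtype.ext
          rw [H759.coe_conjAut]
        rw [h1, h2]
        simp)
  -- `ψ` is an automorphism of `S`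
  have hψS := H802.restrict_mem hψ (le_sup_right : S ≤ T₁ ⊔ S)
  obtain ⟨η, hη, hηe⟩ := H802.exists_aut hψS (H802.range_eq_of_mapsTo hψS
    (fun x => H802.hom_apply_mem hψS x))
  have hcong : ∀ x : T₁, ((α x : T₁) : Ω)⁻¹ * (η ⟨x, hT₁S x.2⟩ : S) ∈ T := by
    intro x
    rw [hηe]
    have h1 := hψe x (α x).2 (Subgroup.mem_sup_left x.2)
    have h2 : (ψ.comp (Subgroup.inclusion (le_sup_right : S ≤ T₁ ⊔ S))) ⟨x, hT₁S x.2⟩ =
        ψ ⟨x, Subgroup.mem_sup_left x.2⟩ := rfl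
    rw [h2, h1]
    exact hk.2 (α x)
  have hηT : ∀ y : S, (y : Ω) ∈ T → ((η y : S) : Ω) ∈ T := by
    intro y hy
    exact H759.StronglyClosed.apply_mem hT ((H802.mem_autGroup_iff F le_rfl η).1 hη) hy
  obtain ⟨m, hm, hco'⟩ := exists_coprime_power (p := p) η (orderOf_pos η).ne' hco
  have h3 := pow_congr_mod hT₁S hηT hcong m t
  rw [pow_eq_of_modEq hm, hp' _ (Subgroup.pow_mem _ hη m) hco'] at h3
  have h4 := T.inv_mem h3
  simpa using h4

/-- If `α` has order prime to `p`, moves the elements of `R` inside a `p`-group modulo `T₁`, and is trivial on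
`T₁` modulo `T`, it is trivial modulo `T`. -/
theorem mem_of_mem_of_fix [Finite S] {p : ℕ} (hS : IsPGroup p S)
    {T T₁ R : Subgroup Ω} (hTn : S ≤ Subgroup.normalizer (T : Set Ω)) (hR : R ≤ S) {α : MulAut R} (hco : (orderOf α).Coprime p)
    (hαT : ∀ x : R, (x : Ω) ∈ T₁ → ((α x : R) : Ω) ∈ T₁)
    (h1 : ∀ x : R, (x : Ω) ∈ T₁ → (x : Ω)⁻¹ * (α x : R) ∈ T)
    (h2 : ∀ x : R, (x : Ω)⁻¹ * (α x : R) ∈ T₁) (x : R) : (x : Ω)⁻¹ * (α x : R) ∈ T := by
  have : Finite R := H802.finite_of_le hR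
  have key : ∀ n : ℕ, ∀ y : R, (y : Ω) ∈ T₁ → (y : Ω)⁻¹ * ((α ^ n) y : R) ∈ T := by
    intro n
    induction n with
    | zero => intro y _; simp
    | succ n ih =>
      intro y hy
      have h3 := h1 y hy
      have h4 := ih (α y) (hαT y hy)
      rw [pow_succ, MulAut.mul_apply]
      have h5 := T.mul_mem h3 h4
      simpa [mul_assoc] using h5
  -- `(α ^ n) x ≡ x u ^ n` with `u = x⁻¹ α x`
  set u : R := x⁻¹ * α x with hu
  have huT : (u : Ω) ∈ T₁ := h2 x
  have key2 : ∀ n : ℕ, ((x * u ^ n : R) : Ω)⁻¹ * ((α ^ n) x : R) ∈ T := by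
    intro n
    induction n with
    | zero => simp
    | succ n ih =>
      have h3 := key n u huT
      have h4 : ((α ^ (n + 1)) x : R) = (α ^ n) x * (α ^ n) u := by
        rw [pow_succ, MulAut.mul_apply, ← map_mul, hu]
        simp
      rw [h4]
      -- `(x u^n u)⁻¹ (α^n x) (α^n u)`
      have h5 : ((u : Ω))⁻¹ * ((((x * u ^ n : R) : Ω)⁻¹ * ((α ^ n) x : R))) * (u : Ω) ∈ T := by
        have := (Subgroup.mem_normalizer_iff.1 (hTn (S.inv_mem (hR u.2))) _).1 ih
        simpa using this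
      have h6 := T.mul_mem h5 h3
      have h7 : (((x * u ^ (n + 1) : R) : Ω))⁻¹ * (((α ^ n) x * (α ^ n) u : R) : Ω) =
          ((u : Ω))⁻¹ * ((((x * u ^ n : R) : Ω)⁻¹ * ((α ^ n) x : R))) * (u : Ω) *
            ((u : Ω)⁻¹ * ((α ^ n) u : R)) := by
        push_cast
        rw [pow_succ]
        group
      rw [h7]
      exact h6
  have h3 := key2 (orderOf α)
  rw [pow_orderOf_eq_one] at h3
  have h4 : (u : Ω) ^ orderOf α ∈ T := by
    have := T.inv_mem h3
    simpa using this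
  obtain ⟨j, hj⟩ := hS ⟨u, hR u.2⟩
  have h5 : (u : Ω) ^ p ^ j = 1 := congrArg Subtype.val hj
  have h6 : (orderOf α).Coprime (p ^ j) := hco.pow_right j
  have h7 : (u : Ω) = ((u : Ω) ^ orderOf α) ^ (Nat.gcdA (orderOf α) (p ^ j)) := by
    have h8 := Nat.gcd_eq_gcd_ab (orderOf α) (p ^ j)
    rw [h6.gcd_eq_one] at h8
    calc (u : Ω) = (u : Ω) ^ ((1 : ℕ) : ℤ) := by simp
      _ = (u : Ω) ^ ((orderOf α : ℤ) * Nat.gcdA (orderOf α) (p ^ j) +
          ((p ^ j : ℕ) : ℤ) * Nat.gcdB (orderOf α) (p ^ j)) := by rw [h8]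
      _ = _ := by
        rw [zpow_add, zpow_mul, zpow_mul, zpow_natCast, zpow_natCast, h5, one_zpow, mul_one]
  have h9 : (u : Ω) ∈ T := by
    rw [h7]
    exact T.zpow_mem h4 _
  exact h9

/-- The automorphisms of order prime to `p` are trivial modulo `T`. -/
def TrivMod (F : FusionSystem S) (p : ℕ) (T : Subgroup Ω) : Prop :=
  ∀ R : Subgroup Ω, R ≤ S → ∀ α ∈ F.autGroup R, (orderOf α).Coprime p →
    ∀ x : R, (x : Ω)⁻¹ * (α x : R) ∈ T

theorem TrivMod.mono {F : FusionSystem S} {p : ℕ} {T T' : Subgroup Ω} (h : TrivMod F p T)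
    (hle : T ≤ T') : TrivMod F p T' :=
  fun R hR α hα hco x => hle (h R hR α hα hco x)

/-- It is enough to consider the subgroups containing `T`. -/
theorem TrivMod.of_ge [Finite S] {p : ℕ} [Fact p.Prime] (hS : IsPGroup p S)
    {F : FusionSystem S} (hF : F.IsSaturated p) {T : Subgroup Ω} (hT : F.StronglyClosed T)
    (h : ∀ R : Subgroup Ω, R ≤ S → T ≤ R → ∀ α ∈ F.autGroup R, (orderOf α).Coprime p →
      ∀ x : R, (x : Ω)⁻¹ * (α x : R) ∈ T) : TrivMod F p T := by
  intro R hR α hα hco x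
  obtain ⟨β, hβ, hβco, hβα⟩ := exists_coprime_lift hS hF hT hR hα hco
  have h1 := h _ (sup_le hR hT.1) le_sup_right β hβ hβco ⟨x, Subgroup.mem_sup_left x.2⟩
  have h2 := T.inv_mem (hβα x)
  have h3 := T.mul_mem h1 h2
  simpa [mul_assoc] using h3

/-- The factor system modulo `T` is inner as soon as the focal subgroup lies in all maximal subgroups of `S`
containing `T`. -/
theorem TrivMod.of_coatoms [Finite S] {p : ℕ} [Fact p.Prime] (hS : IsPGroup p S)
    {F : FusionSystem S} (hF : F.IsSaturated p) {T : Subgroup Ω} (hT : F.StronglyClosed T)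
    (h : ∀ M : Subgroup S, IsCoatom M → T.subgroupOf S ≤ M → F.focalSubgroup ≤ M.map S.subtype) :
    TrivMod F p T := by
  have hTn : (T.subgroupOf S).Normal := ⟨fun n hn g =>
    (Subgroup.mem_normalizer_iff.1 (H759.StronglyClosed.le_normalizer hT g.2) n).1 hn⟩
  set θ : S →* (S ⧸ T.subgroupOf S) := QuotientGroup.mk' (T.subgroupOf S) with hθ
  have hker : ∀ s : S, θ s = 1 ↔ (s : Ω) ∈ T := by
    intro s
    rw [hθ, QuotientGroup.mk'_apply, QuotientGroup.eq_one_iff]
    rfl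
  have hsurj : Function.Surjective θ := QuotientGroup.mk'_surjective _
  have hr : θ.range = (⊤ : Subgroup (S ⧸ T.subgroupOf S)) := MonoidHom.range_eq_top.2 hsurj
  obtain ⟨E, hE⟩ := H759.exists_factorSystem hT hker hr
  have hEs : E.IsSaturated p := H759.isSaturated_factor hS hF hT hE
  have hS' : IsPGroup p (⊤ : Subgroup (S ⧸ T.subgroupOf S)) := (hS.to_quotient _).to_subgroup ⊤
  -- `foc E ≤ Φ`
  have hfoc : E.focalSubgroup ≤ (frattini ↥(⊤ : Subgroup (S ⧸ T.subgroupOf S))).map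
      (⊤ : Subgroup (S ⧸ T.subgroupOf S)).subtype := by
    refine H747.focal_le fun P' φ' hφ' y => ?_
    obtain ⟨φ, hφ, hφφ'⟩ := H759.exists_map_of_factor hE hφ'
    obtain ⟨x, hxS, hx, hxy⟩ := H759.exists_preimage_of_mem hE le_top y.2
    have hyx : y = ⟨θ ⟨x, hxS⟩, by rw [hxy]; exact y.2⟩ := Subtype.ext hxy.symm
    have hφS : φ ⟨x, hx⟩ ∈ S := H802.hom_apply_mem hφ _
    have h1 : φ' y = θ ⟨φ ⟨x, hx⟩, hφS⟩ := by
      rw [hyx]
      exact hφφ' x hx hxS _ _
    have h2 : (y : S ⧸ T.subgroupOf S)⁻¹ * φ' y = θ (⟨x, hxS⟩⁻¹ * ⟨φ ⟨x, hx⟩, hφS⟩) := by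
      rw [h1, map_mul, map_inv, ← hxy]
    rw [h2]
    refine ⟨⟨_, Subgroup.mem_top _⟩, ?_, rfl⟩
    show _ ∈ frattini _
    rw [frattini, Order.radical]
    simp only [Subgroup.mem_iInf]
    intro M hM
    -- the preimage of `M`
    let θ' : S →* (⊤ : Subgroup (S ⧸ T.subgroupOf S)) := θ.codRestrict ⊤ (fun _ => Subgroup.mem_top _)
    have hθ's : Function.Surjective θ' := by
      rintro ⟨y, hy⟩
      obtain ⟨s, rfl⟩ := hsurj y
      exact ⟨s, rfl⟩
    have hN := Subgroup.isCoatom_comap_of_surjective hθ's hM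
    have hTN : T.subgroupOf S ≤ M.comap θ' := by
      intro s hs
      have : θ' s = 1 := Subtype.ext ((hker s).2 hs)
      rw [Subgroup.mem_comap, this]
      exact M.one_mem
    obtain ⟨s, hs, hse⟩ := h _ hN hTN (H747.focal_mem hφ ⟨x, hx⟩)
    have h3 : s = (⟨x, hxS⟩⁻¹ * ⟨φ ⟨x, hx⟩, hφS⟩ : S) := Subtype.ext hse
    rw [h3] at hs
    exact hs
  have hinner := H747.hom_eq_inner_of_focal_le_frattini hS' hEs hfoc
  refine TrivMod.of_ge hS hF hT fun R hR hTR α hα hco x => ?_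
  have hmap := (H802.mem_autGroup_iff F hR α).1 hα
  have hpre : preimageAlong θ (imageAlong θ R) ≤ R := by
    intro z hz
    obtain ⟨hzS, hz'⟩ := H759.mem_preimageAlong.1 hz
    obtain ⟨w, hwS, hw, hwz⟩ := H759.mem_imageAlong.1 hz'
    have h1 := (H759.theta_eq_iff hE).1 hwz
    have h2 : z = w * (w⁻¹ * z) := by group
    rw [h2]
    exact R.mul_mem hw (hTR h1)
  obtain ⟨φ', hφ', hφ'e⟩ := H759.exists_factor_map hT hE hmap (P' := imageAlong θ R) le_top hpre
  rw [hinner] at hφ'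
  obtain ⟨-, g, -, hg⟩ := hφ'
  have hstep : ∀ y : R, θ ⟨(α y : R), hR (α y).2⟩ = g * θ ⟨y, hR y.2⟩ * g⁻¹ := by
    intro y
    have hy' : θ ⟨(y : Ω), hR y.2⟩ ∈ imageAlong θ R := H759.mem_imageAlong.2 ⟨y, hR y.2, y.2, rfl⟩
    have h1 := hφ'e y y.2 (hR y.2) hy' (hR (α y).2)
    have h2 := hg ⟨θ ⟨(y : Ω), hR y.2⟩, hy'⟩
    rw [h1] at h2
    exact h2
  have hpow : ∀ (n : ℕ) (y : R), θ ⟨((α ^ n) y : R), hR ((α ^ n) y).2⟩ =
      g ^ n * θ ⟨y, hR y.2⟩ * (g ^ n)⁻¹ := by
    intro n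
    induction n with
    | zero => intro y; simp
    | succ n ih =>
      intro y
      have h1 := hstep ((α ^ n) y)
      rw [ih] at h1
      have h2 : (⟨((α ^ (n + 1)) y : R), hR ((α ^ (n + 1)) y).2⟩ : S) =
          ⟨(α ((α ^ n) y) : R), hR (α ((α ^ n) y)).2⟩ := by
        apply Subtype.ext
        show (((α ^ (n + 1)) y : R) : Ω) = _
        rw [pow_succ', MulAut.mul_apply]
      rw [h2, h1, pow_succ']
      group
  obtain ⟨j, hj⟩ := (hS.to_quotient (T.subgroupOf S)) g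
  obtain ⟨m, hm, c, hc⟩ := exists_mod_pow j hco
  have h1 := hpow m x
  have h2 : g ^ m = 1 := by
    rw [hc, pow_mul, hj, one_pow]
  have h3 : α ^ m = α := pow_eq_of_modEq hm
  rw [h2] at h1
  have h4 : (⟨((α ^ m) x : R), hR ((α ^ m) x).2⟩ : S) = ⟨(α x : R), hR (α x).2⟩ := by
    apply Subtype.ext
    show (((α ^ m) x : R) : Ω) = _
    rw [h3]
  rw [h4, one_mul, inv_one, mul_one] at h1
  exact (H759.theta_eq_iff hE).1 h1.symm

/-- **The main argument.** -/
theorem inner_of_weak [Finite S] {p : ℕ} [hp : Fact p.Prime] (hS : IsPGroup p S)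
    {F : FusionSystem S} (hF : F.IsSaturated p) {k : ℕ}
    (hweak : ∀ Q : Subgroup Ω, Q ≤ S → Nat.card Q = p ^ k →
      ∃ P : Subgroup Ω, F.StronglyClosed P ∧ F.StronglyClosed (Q ⊔ P) ∧ F.StronglyClosed (Q ⊓ P))
    (hnorm : ∀ H : Subgroup Ω, F.IsFullyNormalized H → Nat.card H = p ^ k →
      ∀ (P : Subgroup Ω) (φ : P →* Ω), φ ∈ F.normalizerHom H P →
        ∃ g ∈ S, ∀ x : P, φ x = g * (x : Ω) * g⁻¹)
    (hk : p ^ k < Nat.card S) : TrivMod F p ⊥ := by
  have hlarge := fun {R : Subgroup Ω} (hR : R ≤ S) (hkR : p ^ k ≤ Nat.card R) {α : MulAut R} =>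
    eq_one_of_large hS hF hweak hnorm hR hkR (α := α)
  by_contra hbad
  -- a maximal strongly closed `T` modulo which `F` is not trivial
  have hfin : {T : Subgroup Ω | F.StronglyClosed T ∧ ¬ TrivMod F p T}.Finite :=
    (finite_Iic (R := S)).subset fun T hT => hT.1.1
  obtain ⟨T, hTm⟩ := hfin.exists_maximal ⟨⊥, H759.StronglyClosed.bot, hbad⟩
  have hT : F.StronglyClosed T := hTm.prop.1
  have hTbad : ¬ TrivMod F p T := hTm.prop.2
  have hTn := H759.StronglyClosed.le_normalizer hT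
  have habove : ∀ T', F.StronglyClosed T' → T < T' → TrivMod F p T' := by
    intro T' hT' hlt
    by_contra hcon
    exact hlt.not_ge (hTm.le_of_ge ⟨hT', hcon⟩ hlt.le)
  have hTS : T < S := by
    refine lt_of_le_of_ne hT.1 fun h => hTbad ?_
    intro R hR α hα hco x
    rw [h]
    exact S.mul_mem (S.inv_mem (hR x.2)) (hR (α x).2)
  -- `T₁`
  set T₁ : Subgroup Ω := sInf {T' | F.StronglyClosed T' ∧ T < T'} with hT₁def
  have hT₁le : ∀ T', F.StronglyClosed T' → T < T' → T₁ ≤ T' := fun T' h1 h2 => sInf_le ⟨h1, h2⟩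
  have hT₁ : F.StronglyClosed T₁ := by
    refine ⟨hT₁le S H759.StronglyClosed.top hTS, fun R hR φ hφ x => ?_⟩
    rw [hT₁def, Subgroup.mem_sInf]
    intro T' hT'
    exact hT'.1.2 R (hR.trans (sInf_le hT')) φ hφ x
  have hT₁triv : TrivMod F p T₁ := by
    intro R hR α hα hco x
    rw [hT₁def, Subgroup.mem_sInf]
    intro T' hT'
    exact habove T' hT'.1 hT'.2 R hR α hα hco x
  have hTT₁ : T < T₁ := by
    refine lt_of_le_of_ne (le_sInf fun T' hT' => hT'.2.le) fun h => hTbad ?_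
    rw [h]
    exact hT₁triv
  have hfinT₁ : Finite T₁ := H802.finite_of_le hT₁.1
  have hfinT : Finite T := H802.finite_of_le hT.1
  -- `|T| < p ^ k`
  have hTk : Nat.card T < p ^ k := by
    by_contra hcon
    push Not at hcon
    apply hTbad
    intro R hR α hα hco x
    obtain ⟨β, hβ, hβco, hβα⟩ := exists_coprime_lift hS hF hT hR hα hco
    have hRT : R ⊔ T ≤ S := sup_le hR hT.1
    have : Finite ↥(R ⊔ T) := H802.finite_of_le hRT
    have h1 : β = 1 := hlarge hRT (hcon.trans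
      (Nat.card_le_card_of_injective _ (Subgroup.inclusion_injective le_sup_right))) hβ hβco
    have h2 := T.inv_mem (hβα x)
    rw [h1] at h2
    simpa using h2
  -- the key property
  have hstar : ∀ Q : Subgroup Ω, Q ≤ S → T ≤ Q → Nat.card Q = p ^ k → T < Q ⊓ T₁ → T₁ ≤ Q := by
    intro Q hQS hTQ hQ hlt
    obtain ⟨P, hP, hQP, hQiP⟩ := hweak Q hQS hQ
    have hP₁ : F.StronglyClosed (P ⊔ T) := H759.StronglyClosed.sup hS hF hP hT
    have hi : Q ⊓ (P ⊔ T) = (Q ⊓ P) ⊔ T := by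
      apply le_antisymm
      · rintro x ⟨hxQ, hx⟩
        obtain ⟨a, ha, b, hb, rfl⟩ := (H759.mem_sup_of_normalizes (hP.1.trans hTn)).1 hx
        have haQ : a ∈ Q := by
          have h1 := Q.mul_mem hxQ (Q.inv_mem (hTQ hb))
          simpa using h1
        exact Subgroup.mul_mem _ (Subgroup.mem_sup_left ⟨haQ, ha⟩) (Subgroup.mem_sup_right hb)
      · exact sup_le (inf_le_inf_left _ le_sup_left) (le_inf hTQ le_sup_right)
    have hiS : F.StronglyClosed (Q ⊓ (P ⊔ T)) := by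
      rw [hi]
      exact H759.StronglyClosed.sup hS hF hQiP hT
    rcases (le_sup_right : T ≤ P ⊔ T).eq_or_lt with h | h
    · -- `P ≤ T`
      have hPT : P ≤ T := le_sup_left.trans h.ge
      have hQsc : F.StronglyClosed Q := by
        have : Q ⊔ P = Q := sup_eq_left.2 (hPT.trans hTQ)
        rwa [this] at hQP
      exact hT₁le Q hQsc (hlt.trans_le inf_le_left)
    · have h1 : T₁ ≤ P ⊔ T := hT₁le _ hP₁ h
      have h2 : T < Q ⊓ (P ⊔ T) := hlt.trans_le (inf_le_inf_left _ h1)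
      exact (hT₁le _ hiS h2).trans inf_le_left
  have hpos : 0 < p := hp.out.pos
  rcases Nat.lt_or_ge (p * Nat.card T) (Nat.card T₁) with hbig | hsmall
  · -- `|T₁ : T| > p`
    apply hTbad
    refine TrivMod.of_coatoms hS hF hT fun M hM hTM => ?_
    set X : Subgroup Ω := M.map S.subtype with hX
    have hXS : X ≤ S := by
      rintro _ ⟨x, -, rfl⟩
      exact x.2
    have hfinX : Finite X := H802.finite_of_le hXS
    have hMX : X.subgroupOf S = M := by
      rw [hX, Subgroup.subgroupOf, Subgroup.comap_map_eq_self_of_injective S.subtype_injective]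
    have hMn : M.Normal := Lib.FrattiniPGroup.normal_of_coatom hS hM
    have hMi : M.index = p := Lib.FrattiniPGroup.index_of_coatom hS hM
    have hrel : X.relIndex S = p := by
      rw [Subgroup.relIndex, hMX, hMi]
    have hTX : T ≤ X := by
      intro t ht
      exact ⟨⟨t, hT.1 ht⟩, hTM ht, rfl⟩
    have hcomm : ⁅(S : Subgroup Ω), (S : Subgroup Ω)⁆ ≤ X := by
      rw [Subgroup.commutator_le]
      intro a ha b hb
      have h1 : ⁅(⟨a, ha⟩ : S), ⟨b, hb⟩⁆ ∈ frattini S :=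
        Lib.FrattiniPGroup.commutator_mem_frattini hS _ _
      exact ⟨_, frattini_le_coatom hM h1, rfl⟩
    have hcX : Nat.card X * p = Nat.card S := by
      have h1 := Subgroup.card_mul_index M
      rw [hMi] at h1
      rw [← h1, hX, Nat.card_congr (M.equivMapOfInjective _ S.subtype_injective).toEquiv.symm]
    have hkX : p ^ k ≤ Nat.card X := by
      obtain ⟨a, ha⟩ := (hS.to_le hXS).exists_card_eq
      rw [ha] at hcX ⊢
      rw [← hcX, ← pow_succ] at hk
      exact Nat.pow_le_pow_right hpos (Nat.lt_succ_iff.1 ((Nat.pow_lt_pow_iff_right hp.out.one_lt).1 hk))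
    have hT₁X : T₁ ≤ X := by
      by_contra hcon
      have hM' : Nat.card T₁ ≤ p * Nat.card (X ⊓ T₁ : Subgroup Ω) := by
        have h1 : X.relIndex T₁ ≤ X.relIndex S :=
          Subgroup.relIndex_le_of_le_right hT₁.1 (by rw [hrel]; exact hpos.ne')
        have h2 : X.relIndex T₁ * Nat.card (X.subgroupOf T₁) = Nat.card T₁ := by
          rw [mul_comm]
          exact Subgroup.card_mul_index _
        have h3 : Nat.card (X.subgroupOf T₁) = Nat.card (X ⊓ T₁ : Subgroup Ω) := by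
          rw [← Subgroup.subgroupOf_map_subtype,
            Nat.card_congr ((X.subgroupOf T₁).equivMapOfInjective _ T₁.subtype_injective).toEquiv]
        rw [← h2, h3]
        rw [hrel] at h1
        exact Nat.mul_le_mul_right _ h1
      have hTM' : T < X ⊓ T₁ := by
        refine lt_of_le_of_ne (le_inf hTX hTT₁.le) fun h => ?_
        rw [← h] at hM'
        omega
      have hMS : X ⊓ T₁ ≤ S := inf_le_left.trans hXS
      have : Finite (X ⊓ T₁ : Subgroup Ω) := H802.finite_of_le hMS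
      rcases le_or_gt (Nat.card (X ⊓ T₁ : Subgroup Ω)) (p ^ k) with h | h
      · obtain ⟨Q, hQ1, hQ2, hQ⟩ := exists_between (hS.to_le hXS) (inf_le_left : X ⊓ T₁ ≤ X) h hkX
        exact hcon ((hstar Q (hQ2.trans hXS) (hTM'.le.trans hQ1) hQ
          (hTM'.trans_le (le_inf hQ1 inf_le_right))).trans hQ2)
      · obtain ⟨Q, hQ1, hQ2, hQ⟩ := exists_between (hS.to_le hMS) hTM'.le hTk.le h.le
        have hTQ : T < Q := lt_of_le_of_ne hQ1 fun h' => by
          rw [h'] at hTk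
          omega
        exact hcon ((hstar Q (hQ2.trans hMS) hQ1 hQ
          (hTQ.trans_le (le_inf le_rfl (hQ2.trans inf_le_right)))).trans (hQ2.trans inf_le_left))
    refine H747.focal_le_of_saturated hS hF hcomm ?_
    exact H747.hyperfocal_le fun P hP α hα hco x => hT₁X (hT₁triv P hP α hα hco x)
  · -- `|T₁ : T| = p`
    have hc : Nat.card T₁ = p * Nat.card T := by
      refine le_antisymm hsmall ?_
      obtain ⟨a, ha⟩ := Subgroup.card_dvd_of_le hTT₁.le
      obtain ⟨b, hb⟩ := (hS.to_le hT₁.1).exists_card_eq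
      have ha' : a ∣ p ^ b := by
        rw [← hb, ha]
        exact Dvd.intro_left _ rfl
      obtain ⟨c, -, hc⟩ := (Nat.dvd_prime_pow hp.out).1 ha'
      have hc0 : c ≠ 0 := by
        rintro rfl
        rw [pow_zero] at hc
        rw [hc, mul_one] at ha
        exact hTT₁.ne (Subgroup.eq_of_le_of_card_ge hTT₁.le ha.le)
      rw [ha, mul_comm, hc]
      refine Nat.mul_le_mul_left _ ?_
      calc p = p ^ 1 := (pow_one p).symm
        _ ≤ p ^ c := Nat.pow_le_pow_right hpos (Nat.one_le_iff_ne_zero.2 hc0)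
    apply hTbad
    refine TrivMod.of_ge hS hF hT fun R hR hTR α hα hco x => ?_
    have hfinR : Finite R := H802.finite_of_le hR
    rcases (le_inf hTR hTT₁.le : T ≤ R ⊓ T₁).eq_or_lt with h | h
    · rw [h]
      exact ⟨R.mul_mem (R.inv_mem x.2) (α x).2, hT₁triv R hR α hα hco x⟩
    · have h1 : R ⊓ T₁ = T₁ := eq_of_card_prime hp.out h inf_le_right hc
      have hT₁R : T₁ ≤ R := inf_eq_right.1 h1
      have hαT₁ : ∀ x : R, (x : Ω) ∈ T₁ → ((α x : R) : Ω) ∈ T₁ := fun x hx =>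
        H759.StronglyClosed.apply_mem hT₁ ((H802.mem_autGroup_iff F hR α).1 hα) hx
      refine mem_of_mem_of_fix hS hTn hR hco hαT₁ (fun y hy => ?_) (fun y => hT₁triv R hR α hα hco y) x
      -- restrict `α` to `T₁`
      have hres := H802.restrict_mem ((H802.mem_autGroup_iff F hR α).1 hα) hT₁R
      obtain ⟨γ, hγ, hγe⟩ := H802.exists_aut hres (H802.range_eq_of_mapsTo hres
        (fun z => hαT₁ _ z.2))
      have hγn : ∀ (n : ℕ) (z : T₁), (((γ ^ n) z : T₁) : Ω) = ((α ^ n) ⟨z, hT₁R z.2⟩ : R) := by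
        intro n
        induction n with
        | zero => intro z; simp
        | succ n ih =>
          intro z
          rw [pow_succ, MulAut.mul_apply, ih, pow_succ, MulAut.mul_apply]
          congr 2
          exact Subtype.ext (hγe z)
      have hγ1 : γ ^ orderOf α = 1 := by
        ext z
        rw [hγn, pow_orderOf_eq_one]
        rfl
      have hγco : (orderOf γ).Coprime p :=
        Nat.Coprime.coprime_dvd_left (orderOf_dvd_of_pow_eq_one hγ1) hco
      have h2 := fix_of_card hS hF hT hT₁ hTT₁ hc (fun α hα hco => hlarge le_rfl hk.le hα hco) hγ hγco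
        ⟨y, hy⟩
      rw [hγe] at h2
      exact h2

end Cfsg.Agent.H787
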